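import Mathlib
import Cfsg.Agent.Lib.Helper18.AutPSL.GFieldCent

set_option autoImplicit false
set_option linter.unusedSectionVars false

/-!
Reflexive `τ`-sesquilinear forms (`τ² = 1`) on `ι → F`: the geometry needed for the
centralisers of graph and graph-field involutions of `PSL_n(F)`.
-/

namespace Cfsg.Agent.Lib.Helper18.BalPSL

open Matrix MatrixGroups Cfsg.Agent.Lib.Helper18.AutPSL

variable {ι : Type*} [Fintype ι] [DecidableEq ι] {F : Type*} [Field F]

/-- the linear form `B(u, ·)` as a row vector -/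
def rv (τ : F ≃+* F) (N : Matrix ι ι F) (u : ι → F) : ι → F := (fun i => τ (u i)) ᵥ* N

/-- the form `B(u, v) = Σ τ(u i) N i j v j` -/
def bf (τ : F ≃+* F) (N : Matrix ι ι F) (u v : ι → F) : F := rv τ N u ⬝ᵥ v

variable {τ : F ≃+* F} {N : Matrix ι ι F} {ε : F}

theorem rv_add (u v : ι → F) : rv τ N (u + v) = rv τ N u + rv τ N v := by
  unfold rv
  rw [← Matrix.add_vecMul]
  congr 1
  funext i
  simp

theorem rv_smul (a : F) (u : ι → F) : rv τ N (a • u) = τ a • rv τ N u := by
  unfold rv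
  rw [← Matrix.smul_vecMul]
  congr 1
  funext i
  simp

theorem rv_dot (u v : ι → F) : rv τ N u ⬝ᵥ v = bf τ N u v := rfl

theorem bf_add_left (u u' v : ι → F) : bf τ N (u + u') v = bf τ N u v + bf τ N u' v := by
  unfold bf
  rw [rv_add, add_dotProduct]

theorem bf_smul_left (a : F) (u v : ι → F) : bf τ N (a • u) v = τ a * bf τ N u v := by
  unfold bf
  rw [rv_smul, smul_dotProduct, smul_eq_mul]

theorem bf_add_right (u v v' : ι → F) : bf τ N u (v + v') = bf τ N u v + bf τ N u v' := by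
  unfold bf
  rw [dotProduct_add]

theorem bf_smul_right (a : F) (u v : ι → F) : bf τ N u (a • v) = a * bf τ N u v := by
  unfold bf
  rw [dotProduct_smul, smul_eq_mul]

theorem bf_zero_left (v : ι → F) : bf τ N 0 v = 0 := by
  have := bf_smul_left (τ := τ) (N := N) 0 0 v
  simpa using this

theorem bf_zero_right (v : ι → F) : bf τ N v 0 = 0 := by
  unfold bf
  rw [dotProduct_zero]

theorem bf_neg_left (u v : ι → F) : bf τ N (-u) v = - bf τ N u v := by
  have := bf_smul_left (τ := τ) (N := N) (-1) u v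
  simpa using this

theorem bf_neg_right (u v : ι → F) : bf τ N u (-v) = - bf τ N u v := by
  unfold bf
  rw [dotProduct_neg]

theorem bf_sub_left (u u' v : ι → F) : bf τ N (u - u') v = bf τ N u v - bf τ N u' v := by
  rw [sub_eq_add_neg, bf_add_left, bf_neg_left, sub_eq_add_neg]

theorem bf_sub_right (u v v' : ι → F) : bf τ N u (v - v') = bf τ N u v - bf τ N u v' := by
  rw [sub_eq_add_neg, bf_add_right, bf_neg_right, sub_eq_add_neg]

/-- a non-degenerate reflexive sesquilinear form: symmetric, alternating or Hermitian -/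
structure Frm (τ : F ≃+* F) (ε : F) (N : Matrix ι ι F) : Prop where
  inv : ∀ a, τ (τ a) = a
  eps : ε = 1 ∨ (ε = -1 ∧ ∀ a, τ a = a)
  symm : ∀ u v, bf τ N v u = ε * τ (bf τ N u v)
  nondeg : ∀ u, (∀ v, bf τ N u v = 0) → u = 0

namespace Frm

variable (h : Frm τ ε N)
include h

theorem eps_sq : ε * ε = 1 := by
  rcases h.eps with e | ⟨e, -⟩ <;> rw [e] <;> ring

theorem tau_eps : τ ε = ε := by
  rcases h.eps with e | ⟨e, -⟩ <;> rw [e] <;> simp

theorem eps_ne : ε ≠ 0 := by
  intro e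
  have := h.eps_sq
  rw [e] at this
  simp at this

theorem tau_bf (u v : ι → F) : τ (bf τ N u v) = ε * bf τ N v u := by
  rw [h.symm u v, ← mul_assoc, h.eps_sq, one_mul]

theorem zero_symm {u v : ι → F} (e : bf τ N u v = 0) : bf τ N v u = 0 := by
  rw [h.symm u v, e, map_zero, mul_zero]

theorem nondeg' (u : ι → F) (e : ∀ v, bf τ N v u = 0) : u = 0 :=
  h.nondeg u fun v => h.zero_symm (e v)

end Frm

/-- a hyperbolic pair -/
structure HP (τ : F ≃+* F) (N : Matrix ι ι F) (c d : ι → F) : Prop where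
  cc : bf τ N c c = 0
  dd : bf τ N d d = 0
  cd : bf τ N c d = 1

namespace Frm

variable (h : Frm τ ε N)
include h

theorem dc {c d : ι → F} (hp : HP τ N c d) : bf τ N d c = ε := by
  rw [h.symm c d, hp.cd, map_one, mul_one]

/-- isotropic partner -/
theorem partner (h2 : (2 : F) ≠ 0) {c z : ι → F} (hc : bf τ N c c = 0) (hz : bf τ N c z = 1) :
    HP τ N c (z - (ε * bf τ N z z / 2) • c) := by
  have hzc : bf τ N z c = ε := by rw [h.symm c z, hz, map_one, mul_one]
  have ht : τ (bf τ N z z) = ε * bf τ N z z := h.tau_bf z z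
  have ht2 : τ (2 : F) = 2 := map_ofNat τ 2
  refine ⟨hc, ?_, ?_⟩
  · simp only [bf_sub_left, bf_sub_right, bf_smul_left, bf_smul_right, hc, hz, hzc, map_div₀,
      map_mul, ht, ht2, h.tau_eps]
    have := h.eps_sq
    field_simp
    linear_combination (-4 * bf τ N z z) * this
  · simp only [bf_sub_right, bf_smul_right, hc, hz]
    ring

theorem exists_HP (h2 : (2 : F) ≠ 0) {c : ι → F} (hc : bf τ N c c = 0) (h0 : c ≠ 0) :
    ∃ d, HP τ N c d := by
  have : ∃ z, bf τ N c z ≠ 0 := by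
    by_contra hcon
    push Not at hcon
    exact h0 (h.nondeg c hcon)
  obtain ⟨z, hz⟩ := this
  exact ⟨_, h.partner h2 hc (z := (bf τ N c z)⁻¹ • z) (by
    rw [bf_smul_right, inv_mul_cancel₀ hz])⟩

/-- partner of `c'` inside `c^⊥` -/
theorem exists_HP_perp (h2 : (2 : F) ≠ 0) {c c' : ι → F} (hc' : bf τ N c' c' = 0)
    (hcc' : bf τ N c c' = 0) (hne : ∀ t : F, c' ≠ t • c) :
    ∃ d', HP τ N c' d' ∧ bf τ N c d' = 0 := by
  have : ∃ z, bf τ N c z = 0 ∧ bf τ N c' z ≠ 0 := by
    by_contra hcon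
    push Not at hcon
    obtain ⟨t, ht⟩ := exists_smul_of_ker_le (φ := rv τ N c') (ψ := rv τ N c) hcon
    apply hne (τ t)
    have : c' - τ t • c = 0 := by
      apply h.nondeg
      intro v
      rw [bf_sub_left, bf_smul_left, h.inv]
      show rv τ N c' ⬝ᵥ v - t * (rv τ N c ⬝ᵥ v) = 0
      rw [ht, smul_dotProduct, smul_eq_mul, sub_self]
    exact sub_eq_zero.1 this
  obtain ⟨z, hz0, hz⟩ := this
  refine ⟨_, h.partner h2 hc' (z := (bf τ N c' z)⁻¹ • z) (by
    rw [bf_smul_right, inv_mul_cancel₀ hz]), ?_⟩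
  rw [bf_sub_right, bf_smul_right, bf_smul_right, hz0, hcc']
  ring

end Frm

end Cfsg.Agent.Lib.Helper18.BalPSL
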