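import Mathlib
import Cfsg.Agent.Lib.Helper18.BalPSL.Form

set_option autoImplicit false
set_option linter.unusedSectionVars false

/-!
Existence of isotropic vectors and of Eichler data.
-/

namespace Cfsg.Agent.Lib.Helper18.BalPSL

open Matrix MatrixGroups Cfsg.Agent.Lib.Helper18.AutPSL

variable {ι : Type*} [Fintype ι] [DecidableEq ι] {F : Type*} [Field F]
variable {τ : F ≃+* F} {N : Matrix ι ι F} {ε : F}

theorem exists_conic' [Fintype F] (h2 : (2 : F) ≠ 0) {a b c : F} (ha : a ≠ 0) (hb : b ≠ 0) :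
    ∃ x y : F, a * x ^ 2 + b * y ^ 2 + c = 0 := by
  have hodd : Fintype.card F % 2 = 1 := by
    apply FiniteField.odd_card_of_char_ne_two
    intro h
    have h3 : ((ringChar F : ℕ) : F) = 0 := ringChar.Nat.cast_ringChar
    rw [h] at h3
    apply h2
    exact_mod_cast h3
  obtain ⟨x, y, hxy⟩ := FiniteField.exists_root_sum_quadratic
    (f := Polynomial.C a * Polynomial.X ^ 2 + Polynomial.C 0 * Polynomial.X + Polynomial.C 0)
    (g := Polynomial.C b * Polynomial.X ^ 2 + Polynomial.C 0 * Polynomial.X + Polynomial.C c)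
    (Polynomial.degree_quadratic ha) (Polynomial.degree_quadratic hb) hodd
  refine ⟨x, y, ?_⟩
  simp only [Polynomial.eval_add, Polynomial.eval_mul, Polynomial.eval_C, Polynomial.eval_pow,
    Polynomial.eval_X] at hxy
  linear_combination hxy

theorem exists_norm' [Finite F] (hinv : ∀ a, τ (τ a) = a) (hne : ¬ ∀ a, τ a = a) {l : F}
    (h0 : l ≠ 0) (hl : τ l = l) : ∃ μ : F, μ ≠ 0 ∧ τ μ * μ = l := by
  have h1 : τ ≠ 1 := by
    rintro rfl
    exact hne fun a => rfl
  have hord : orderOf τ = 2 := orderOf_eq_prime (by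
    rw [pow_two]
    ext a
    exact hinv a) h1
  obtain ⟨μ, hμ0, hμ⟩ := nrmS_surj τ 2 (by norm_num) hord l h0 hl
  refine ⟨μ, hμ0, ?_⟩
  rw [← hμ]
  simp [nrmS_succ, nrmS_zero, mul_comm]

/-- projection to `⟨c, d⟩^⊥` -/
def pj (τ : F ≃+* F) (ε : F) (N : Matrix ι ι F) (c d v : ι → F) : ι → F :=
  v - (ε * bf τ N d v) • c - (bf τ N c v) • d

namespace Frm

variable (h : Frm τ ε N)
include h

theorem c_pj {c d : ι → F} (hp : HP τ N c d) (v : ι → F) : bf τ N c (pj τ ε N c d v) = 0 := by
  unfold pj
  simp only [bf_sub_right, bf_smul_right, hp.cc, hp.cd]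
  ring

theorem d_pj {c d : ι → F} (hp : HP τ N c d) (v : ι → F) : bf τ N d (pj τ ε N c d v) = 0 := by
  unfold pj
  simp only [bf_sub_right, bf_smul_right, hp.dd, h.dc hp]
  linear_combination (- bf τ N d v) * h.eps_sq

omit h in
theorem eq_pj (c d v : ι → F) :
    v = (ε * bf τ N d v) • c + (bf τ N c v) • d + pj τ ε N c d v := by
  unfold pj
  module

theorem valid_half (h2 : (2 : F) ≠ 0) (w : ι → F) :
    τ (-(ε * bf τ N w w) / 2) + ε * (-(ε * bf τ N w w) / 2) + bf τ N w w = 0 := by
  have ht2 : τ (2 : F) = 2 := map_ofNat τ 2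
  rw [map_div₀, map_neg, map_mul, h.tau_eps, h.tau_bf, ht2]
  have := h.eps_sq
  field_simp
  linear_combination (-2 * bf τ N w w) * this

theorem exists_iso [Fintype F] (h2 : (2 : F) ≠ 0) (h3 : 3 ≤ Fintype.card ι) :
    ∃ c : ι → F, c ≠ 0 ∧ bf τ N c c = 0 := by
  obtain ⟨v1, h10, -, -⟩ := exists_common_zero h3 (0 : ι → F) 0
  rcases h.eps with e | ⟨e, ht⟩
  · by_contra hcon
    push Not at hcon
    obtain ⟨v2, h20, h12, -⟩ := exists_common_zero h3 (rv τ N v1) (rv τ N v1)
    obtain ⟨v3, h30, h13, h23⟩ := exists_common_zero h3 (rv τ N v1) (rv τ N v2)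
    rw [rv_dot] at h12 h13 h23
    have h21 := h.zero_symm h12
    have h31 := h.zero_symm h13
    have h32 := h.zero_symm h23
    have a1 := hcon v1 h10
    have a2 := hcon v2 h20
    have a3 := hcon v3 h30
    by_cases hτ : ∀ a, τ a = a
    · obtain ⟨x, y, hxy⟩ := exists_conic' h2 (c := bf τ N v3 v3) a1 a2
      apply hcon (x • v1 + y • v2 + v3)
      · intro h0
        have := congrArg (bf τ N v3) h0
        simp only [bf_add_right, bf_smul_right, h31, h32, bf_zero_right] at this
        apply a3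
        linear_combination this
      · simp only [bf_add_right, bf_smul_right, bf_add_left, bf_smul_left, h12, h13, h21, h23,
          h31, h32, hτ]
        linear_combination hxy
    · have t1 : τ (bf τ N v1 v1) = bf τ N v1 v1 := by rw [h.tau_bf, e, one_mul]
      have t2 : τ (bf τ N v2 v2) = bf τ N v2 v2 := by rw [h.tau_bf, e, one_mul]
      obtain ⟨μ, -, hμ⟩ := exists_norm' h.inv hτ (l := - bf τ N v2 v2 / bf τ N v1 v1)
        (div_ne_zero (neg_ne_zero.2 a2) a1) (by rw [map_div₀, map_neg, t1, t2])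
      apply hcon (μ • v1 + v2)
      · intro h0
        have := congrArg (bf τ N v2) h0
        simp only [bf_add_right, bf_smul_right, h21, bf_zero_right] at this
        apply a2
        linear_combination this
      · simp only [bf_add_right, bf_smul_right, bf_add_left, bf_smul_left, h12, h21]
        have : τ μ * μ * bf τ N v1 v1 = - bf τ N v2 v2 := by
          rw [hμ]
          field_simp
        linear_combination this
  · refine ⟨v1, h10, ?_⟩
    have := h.symm v1 v1
    rw [e, ht] at this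
    have h4 : (2 : F) * bf τ N v1 v1 = 0 := by linear_combination this
    exact (mul_eq_zero.1 h4).resolve_left h2

theorem exists_wk (h2 : (2 : F) ≠ 0) (h3 : 3 ≤ Fintype.card ι) {c d : ι → F}
    (hp : HP τ N c d) :
    ∃ (w : ι → F) (k : F), k ≠ 0 ∧ bf τ N c w = 0 ∧ bf τ N d w = 0 ∧
      τ k + ε * k + bf τ N w w = 0 := by
  rcases h.eps with e | ⟨e, ht⟩
  · by_cases hτ : ∀ a, τ a = a
    · obtain ⟨w0, h0, hc0, hd0⟩ := exists_common_zero h3 (rv τ N c) (rv τ N d)
      rw [rv_dot] at hc0 hd0
      by_contra hcon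
      push Not at hcon
      have hW : ∀ w, bf τ N c w = 0 → bf τ N d w = 0 → bf τ N w w = 0 := by
        intro w hc hd
        by_contra hne
        refine hcon w (-(ε * bf τ N w w) / 2) ?_ hc hd (h.valid_half h2 w)
        rw [e, one_mul]
        exact div_ne_zero (neg_ne_zero.2 hne) h2
      apply h0
      apply h.nondeg
      intro v
      have hcp := h.c_pj hp v
      have hdp := h.d_pj hp v
      have e1 := hW _ hc0 hd0
      have e2 := hW _ hcp hdp
      have e3 := hW (w0 + pj τ ε N c d v) (by rw [bf_add_right, hc0, hcp, add_zero])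
        (by rw [bf_add_right, hd0, hdp, add_zero])
      simp only [bf_add_right, bf_add_left, e1, e2] at e3
      have e6 : bf τ N (pj τ ε N c d v) w0 = bf τ N w0 (pj τ ε N c d v) := by
        rw [h.symm w0 _, hτ, e, one_mul]
      rw [e6] at e3
      have e4 : (2 : F) * bf τ N w0 (pj τ ε N c d v) = 0 := by linear_combination e3
      have e5 := (mul_eq_zero.1 e4).resolve_left h2
      rw [eq_pj (τ := τ) (ε := ε) (N := N) c d v]
      simp only [bf_add_right, bf_smul_right, e5, h.zero_symm hc0, h.zero_symm hd0]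
      ring
    · push Not at hτ
      obtain ⟨a, ha⟩ := hτ
      refine ⟨0, a - τ a, ?_, bf_zero_right _, bf_zero_right _, ?_⟩
      · intro h0
        exact ha (sub_eq_zero.1 h0).symm
      · rw [bf_zero_right, map_sub, h.inv, e]
        ring
  · refine ⟨0, 1, one_ne_zero, bf_zero_right _, bf_zero_right _, ?_⟩
    rw [bf_zero_right, map_one, e]
    ring

end Frm

end Cfsg.Agent.Lib.Helper18.BalPSL
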