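import Mathlib
import Cfsg.Agent.Lib.Helper18.BalPSL.Geo

set_option autoImplicit false
set_option linter.unusedSectionVars false

/-!
Eichler (Siegel) transformations of a reflexive sesquilinear form.
-/

namespace Cfsg.Agent.Lib.Helper18.BalPSL

open Matrix MatrixGroups Cfsg.Agent.Lib.Helper18.AutPSL

variable {ι : Type*} [Fintype ι] [DecidableEq ι] {F : Type*} [Field F]
variable {τ : F ≃+* F} {N : Matrix ι ι F} {ε : F}

theorem act_mul (x y : SpecialLinearGroup ι F) (v : ι → F) :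
    (x * y).1 *ᵥ v = x.1 *ᵥ (y.1 *ᵥ v) := by
  rw [Matrix.mulVec_mulVec]
  rfl

theorem act_one (v : ι → F) : (1 : SpecialLinearGroup ι F).1 *ᵥ v = v := by
  show (1 : Matrix ι ι F) *ᵥ v = v
  rw [Matrix.one_mulVec]

theorem act_inv_act (x : SpecialLinearGroup ι F) (v : ι → F) : x⁻¹.1 *ᵥ (x.1 *ᵥ v) = v := by
  rw [← act_mul, inv_mul_cancel, act_one]

theorem act_act_inv (x : SpecialLinearGroup ι F) (v : ι → F) : x.1 *ᵥ (x⁻¹.1 *ᵥ v) = v := by
  rw [← act_mul, mul_inv_cancel, act_one]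

theorem mat_ext {A B : Matrix ι ι F} (h : ∀ v, A *ᵥ v = B *ᵥ v) : A = B := by
  ext i j
  have := congrFun (h (Pi.single j 1)) i
  simpa using this

theorem sl_ext {x y : SpecialLinearGroup ι F} (h : ∀ v, x.1 *ᵥ v = y.1 *ᵥ v) : x = y :=
  Subtype.ext (mat_ext h)

/-- Eichler data -/
structure Val (τ : F ≃+* F) (ε : F) (N : Matrix ι ι F) (c w : ι → F) (k : F) : Prop where
  cc : bf τ N c c = 0
  cw : bf τ N c w = 0
  k : τ k + ε * k + bf τ N w w = 0

/-- the Eichler transformation `v ↦ v + B(c,v) w - ε B(w,v) c + k B(c,v) c` -/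
def Ei (h : Frm τ ε N) {c w : ι → F} {k : F} (hv : Val τ ε N c w k) : SpecialLinearGroup ι F :=
  tv c (-(ε • rv τ N w)) (by
    rw [neg_dotProduct, smul_dotProduct, rv_dot, h.zero_symm hv.cw]; simp) *
  tv (w + (k + ε * bf τ N w w) • c) (rv τ N c) (by
    rw [rv_dot, bf_add_right, bf_smul_right, hv.cw, hv.cc]; simp)

theorem Ei_act (h : Frm τ ε N) {c w : ι → F} {k : F} (hv : Val τ ε N c w k) (v : ι → F) :
    (Ei h hv).1 *ᵥ v = v + bf τ N c v • w - (ε * bf τ N w v) • c + (k * bf τ N c v) • c := by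
  unfold Ei
  rw [act_mul, tv_mulVec, tv_mulVec]
  simp only [neg_dotProduct, smul_dotProduct, rv_dot, bf_add_right, bf_smul_right,
    h.zero_symm hv.cw, smul_eq_mul]
  module

theorem Ei_iso (h : Frm τ ε N) {c w : ι → F} {k : F} (hv : Val τ ε N c w k) (a b : ι → F) :
    bf τ N ((Ei h hv).1 *ᵥ a) ((Ei h hv).1 *ᵥ b) = bf τ N a b := by
  simp only [Ei_act, bf_add_left, bf_add_right, bf_sub_left, bf_sub_right, bf_smul_left,
    bf_smul_right, hv.cc, hv.cw, h.zero_symm hv.cw, map_mul, h.tau_eps, h.tau_bf]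
  linear_combination (ε * bf τ N a c * bf τ N c b) * hv.k -
    (bf τ N a c * bf τ N c b * k + bf τ N a w * bf τ N c b) * h.eps_sq

/-- unipotent isometries with centre `c` -/
structure IsU (τ : F ≃+* F) (N : Matrix ι ι F) (c : ι → F) (u : SpecialLinearGroup ι F) :
    Prop where
  iso : ∀ a b, bf τ N (u.1 *ᵥ a) (u.1 *ᵥ b) = bf τ N a b
  fix : u.1 *ᵥ c = c
  perp : ∀ v, bf τ N c v = 0 → ∃ t : F, u.1 *ᵥ v = v + t • c

theorem isU_Ei (h : Frm τ ε N) {c w : ι → F} {k : F} (hv : Val τ ε N c w k) :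
    IsU τ N c (Ei h hv) := by
  refine ⟨Ei_iso h hv, ?_, ?_⟩
  · rw [Ei_act, hv.cc, h.zero_symm hv.cw]
    simp
  · intro v hcv
    refine ⟨-(ε * bf τ N w v), ?_⟩
    rw [Ei_act, hcv]
    module

theorem IsU.mul {c : ι → F} {u u' : SpecialLinearGroup ι F} (hu : IsU τ N c u)
    (hu' : IsU τ N c u') : IsU τ N c (u * u') := by
  refine ⟨fun a b => ?_, ?_, ?_⟩
  · rw [act_mul, act_mul, hu.iso, hu'.iso]
  · rw [act_mul, hu'.fix, hu.fix]
  · intro v hv
    obtain ⟨t, ht⟩ := hu'.perp v hv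
    obtain ⟨s, hs⟩ := hu.perp v hv
    refine ⟨s + t, ?_⟩
    rw [act_mul, ht, Matrix.mulVec_add, Matrix.mulVec_smul, hu.fix, hs]
    module

/-- similitudes -/
def Sim (τ : F ≃+* F) (N : Matrix ι ι F) (ζ : F) (x : SpecialLinearGroup ι F) : Prop :=
  ∀ u v, bf τ N (x.1 *ᵥ u) (x.1 *ᵥ v) = ζ * bf τ N u v

theorem Sim.ne_zero (h : Frm τ ε N) {ζ : F} {x : SpecialLinearGroup ι F} (hx : Sim τ N ζ x)
    {u : ι → F} (hu : u ≠ 0) : ζ ≠ 0 := by
  rintro rfl
  apply hu
  have h1 : x.1 *ᵥ u = 0 := by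
    apply h.nondeg
    intro v
    have := hx u (x⁻¹.1 *ᵥ v)
    rwa [act_act_inv, zero_mul] at this
  have := act_inv_act x u
  rw [h1, Matrix.mulVec_zero] at this
  exact this.symm

theorem IsU.conj {ζ b : F} {x u : SpecialLinearGroup ι F} {c d : ι → F} (hx : Sim τ N ζ x)
    (hζ : ζ ≠ 0) (hb : b ≠ 0) (hxc : x.1 *ᵥ c = b • d) (hu : IsU τ N d u) :
    IsU τ N c (x⁻¹ * u * x) := by
  have hxd : x⁻¹.1 *ᵥ d = b⁻¹ • c := by
    have := congrArg (fun v => b⁻¹ • (x⁻¹.1 *ᵥ v)) hxc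
    simp only [act_inv_act, Matrix.mulVec_smul, smul_smul, inv_mul_cancel₀ hb, one_smul] at this
    exact this.symm
  refine ⟨fun a a' => ?_, ?_, ?_⟩
  · apply mul_left_cancel₀ hζ
    rw [← hx, act_mul, act_mul, act_mul, act_mul, act_act_inv, act_act_inv, hu.iso, hx]
  · rw [act_mul, act_mul, hxc, Matrix.mulVec_smul, hu.fix, ← hxc, act_inv_act]
  · intro v hv
    have h1 : bf τ N d (x.1 *ᵥ v) = 0 := by
      have := hx c v
      rw [hxc, bf_smul_left, hv, mul_zero] at this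
      exact (mul_eq_zero.1 this).resolve_left (by simpa using hb)
    obtain ⟨t, ht⟩ := hu.perp _ h1
    refine ⟨t * b⁻¹, ?_⟩
    rw [act_mul, act_mul, ht, Matrix.mulVec_add, act_inv_act, Matrix.mulVec_smul, hxd, smul_smul]

theorem IsU.pow_char (r : ℕ) [Fact r.Prime] [CharP F r] (hr : 3 ≤ r) [Nonempty ι] {c : ι → F}
    {u : SpecialLinearGroup ι F} (hu : IsU τ N c u) : u ^ r = 1 := by
  have hA : ∀ v, (u.1 - 1) *ᵥ v = u.1 *ᵥ v - v := fun v => by
    rw [Matrix.sub_mulVec, Matrix.one_mulVec]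
  have h3 : (u.1 - 1) ^ 3 = 0 := by
    apply mat_ext
    intro v
    rw [pow_succ, pow_two, ← Matrix.mulVec_mulVec, ← Matrix.mulVec_mulVec, Matrix.zero_mulVec]
    have h1 : bf τ N c ((u.1 - 1) *ᵥ v) = 0 := by
      rw [hA, bf_sub_right]
      conv_lhs => rw [← hu.fix, hu.iso, hu.fix]
      exact sub_self _
    obtain ⟨t, ht⟩ := hu.perp _ h1
    rw [hA ((u.1 - 1) *ᵥ v), ht, add_sub_cancel_left, Matrix.mulVec_smul, hA, hu.fix, sub_self,
      smul_zero]
  have h4 : u.1 ^ r = 1 := by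
    have e : u.1 = (u.1 - 1) + 1 := by rw [sub_add_cancel]
    rw [e, add_pow_char_of_commute r (Commute.one_right _), one_pow]
    have : r = 3 + (r - 3) := by omega
    rw [this, pow_add, h3, zero_mul, zero_add]
  apply Subtype.ext
  have h5 : (u ^ r).1 = u.1 ^ r := Matrix.SpecialLinearGroup.coe_pow u r
  exact h5.trans h4

/-- an element of `⟨U_c, U_d⟩` interchanging the points `⟨c⟩` and `⟨d⟩` -/
theorem exists_swap (h : Frm τ ε N) {c d w : ι → F} {k : F} (hp : HP τ N c d) (hk : k ≠ 0)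
    (hcw : bf τ N c w = 0) (hdw : bf τ N d w = 0) (hv : τ k + ε * k + bf τ N w w = 0) :
    ∃ u1 u2 u3 : SpecialLinearGroup ι F, IsU τ N d u1 ∧ IsU τ N c u2 ∧ IsU τ N d u3 ∧
      (u3 * u2 * u1).1 *ᵥ c = (ε * k) • d ∧ (u3 * u2 * u1).1 *ᵥ d = (τ k)⁻¹ • c := by
  have ht : τ k ≠ 0 := by simpa using hk
  have hwc := h.zero_symm hcw
  have hwd := h.zero_symm hdw
  have hdc := h.dc hp
  have he := h.eps_sq
  have v1 : Val τ ε N d w k := ⟨hp.dd, hdw, hv⟩
  have v2 : Val τ ε N c (-k⁻¹ • w) (τ k)⁻¹ := by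
    refine ⟨hp.cc, by rw [bf_smul_right, hcw, mul_zero], ?_⟩
    rw [bf_smul_left, bf_smul_right, map_neg, map_inv₀, map_inv₀, h.inv]
    field_simp
    linear_combination hv
  have v3 : Val τ ε N d ((ε * τ k * k⁻¹) • w) k := by
    refine ⟨hp.dd, by rw [bf_smul_right, hdw, mul_zero], ?_⟩
    rw [bf_smul_left, bf_smul_right, map_mul, map_mul, map_inv₀, h.inv, h.tau_eps]
    field_simp
    linear_combination hv + bf τ N w w * he
  refine ⟨Ei h v1, Ei h v2, Ei h v3, isU_Ei h v1, isU_Ei h v2, isU_Ei h v3, ?_, ?_⟩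
  · simp only [act_mul, Ei_act, bf_add_right, bf_sub_right, bf_smul_right, bf_smul_left, hp.cc,
      hp.dd, hp.cd, hdc, hcw, hdw, hwc, hwd, map_mul, map_neg, map_inv₀, h.inv, h.tau_eps, mul_zero, zero_mul,
      add_zero, zero_add, sub_zero, mul_one, one_mul, zero_smul, neg_zero]
    match_scalars <;> field_simp
    all_goals first
      | linear_combination hv + bf τ N w w * he
      | linear_combination ε * ε * (hv + bf τ N w w * he)
      | linear_combination ε * (hv + bf τ N w w * he)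
      | linear_combination he
  · simp only [act_mul, Ei_act, bf_add_right, bf_sub_right, bf_smul_right, bf_smul_left, hp.cc,
      hp.dd, hp.cd, hdc, hcw, hdw, hwc, hwd, map_mul, map_neg, map_inv₀, h.inv, h.tau_eps, mul_zero, zero_mul,
      add_zero, zero_add, sub_zero, mul_one, one_mul, zero_smul, neg_zero]
    match_scalars <;> field_simp
    all_goals first
      | linear_combination hv + bf τ N w w * he
      | linear_combination ε * ε * (hv + bf τ N w w * he)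
      | linear_combination ε * (hv + bf τ N w w * he)
      | linear_combination he

end Cfsg.Agent.Lib.Helper18.BalPSL
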