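import Mathlib
import Cfsg.Agent.Lib.Helper18.BalPSL.Eichler

set_option autoImplicit false
set_option linter.unusedSectionVars false

/-!
Graph and graph-field involutions of `PSL_n(F)`: no invariant subgroup of odd order in the
fixed points.
-/

namespace Cfsg.Agent.Lib.Helper18.BalPSL

open Matrix MatrixGroups Cfsg.Agent.Lib.Helper18.AutPSL

variable {ι : Type*} [Fintype ι] [DecidableEq ι] {F : Type*} [Field F]
variable {τ : F ≃+* F} {N : Matrix ι ι F} {ε : F}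
variable {β : MulAut (ProjectiveSpecialLinearGroup ι F)}

/-- `β` is the polarity automorphism of the form -/
structure Dat (β : MulAut (ProjectiveSpecialLinearGroup ι F)) (τ : F ≃+* F) (ε : F)
    (N : Matrix ι ι F) : Prop where
  frm : Frm τ ε N
  spec : ∀ x y : SpecialLinearGroup ι F, β (pm x) = pm y ↔
    ∃ ζ : F, ∀ u v, bf τ N (x.1 *ᵥ u) (y.1 *ᵥ v) = ζ * bf τ N u v

theorem Dat.fix_of_iso (D : Dat β τ ε N) {x : SpecialLinearGroup ι F}
    (hx : ∀ u v, bf τ N (x.1 *ᵥ u) (x.1 *ᵥ v) = bf τ N u v) : β (pm x) = pm x :=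
  (D.spec x x).2 ⟨1, fun u v => by rw [hx, one_mul]⟩

theorem Dat.sim_of_fix (D : Dat β τ ε N) {x : SpecialLinearGroup ι F} (hx : β (pm x) = pm x) :
    ∃ ζ, Sim τ N ζ x := (D.spec x x).1 hx

theorem gl_act_inv (ρ : GL ι F) (v : ι → F) : ρ.1 *ᵥ (ρ⁻¹.1 *ᵥ v) = v := by
  rw [Matrix.mulVec_mulVec, Units.mul_inv, Matrix.one_mulVec]

theorem gl_inv_act (ρ : GL ι F) (v : ι → F) : ρ⁻¹.1 *ᵥ (ρ.1 *ᵥ v) = v := by
  rw [Matrix.mulVec_mulVec, Units.inv_mul, Matrix.one_mulVec]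

theorem conjS_act (ρ : GL ι F) (x : SpecialLinearGroup ι F) (v : ι → F) :
    (conjS ρ x).1 *ᵥ v = ρ.1 *ᵥ (x.1 *ᵥ (ρ⁻¹.1 *ᵥ v)) := by
  rw [conjS_val, Matrix.mulVec_mulVec, Matrix.mulVec_mulVec]

theorem Dat.comm_cG (D : Dat β τ ε N) (ρ : GL ι F)
    (hρ : ∀ u v, bf τ N (ρ.1 *ᵥ u) (ρ.1 *ᵥ v) = bf τ N u v) : cG ρ * β = β * cG ρ := by
  ext X
  obtain ⟨x, rfl⟩ := pm_surjective X
  obtain ⟨y, hy⟩ := pm_surjective (β (pm x))
  show cG ρ (β (pm x)) = β (cG ρ (pm x))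
  rw [← hy, cG_pm, cG_pm]
  symm
  apply (D.spec _ _).2
  obtain ⟨ζ, hζ⟩ := (D.spec x y).1 hy.symm
  refine ⟨ζ, fun u v => ?_⟩
  rw [conjS_act, conjS_act, hρ, hζ]
  congr 1
  conv_rhs => rw [← gl_act_inv ρ u, ← gl_act_inv ρ v, hρ]

/-- the subgroups to be killed -/
structure IsM (β : MulAut (ProjectiveSpecialLinearGroup ι F))
    (M : Subgroup (ProjectiveSpecialLinearGroup ι F)) : Prop where
  le : ∀ k ∈ M, β k = k
  odd : Odd (Nat.card M)
  inv : ∀ α : MulAut (ProjectiveSpecialLinearGroup ι F), α * β = β * α → ∀ k ∈ M, α k ∈ M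

theorem IsM.conj {M : Subgroup (ProjectiveSpecialLinearGroup ι F)} (hM : IsM β M)
    {Y m : ProjectiveSpecialLinearGroup ι F} (hY : β Y = Y) (hm : m ∈ M) : Y * m * Y⁻¹ ∈ M := by
  apply hM.inv (MulAut.conj Y) _ m hm
  ext k
  show Y * β k * Y⁻¹ = β (Y * k * Y⁻¹)
  rw [map_mul, map_mul, map_inv, hY]

theorem pow_mul_inv_mem {G : Type*} [Group G] {M : Subgroup G} {Y m : G}
    (hY : ∀ m ∈ M, Y * m * Y⁻¹ ∈ M) (hm : m ∈ M) (j : ℕ) : (m * Y) ^ j * (Y ^ j)⁻¹ ∈ M := by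
  have hYj : ∀ j : ℕ, ∀ m ∈ M, Y ^ j * m * (Y ^ j)⁻¹ ∈ M := by
    intro j
    induction j with
    | zero => intro m hm; simpa using hm
    | succ j ih =>
      intro m hm
      have := ih _ (hY m hm)
      have e : Y ^ (j + 1) * m * (Y ^ (j + 1))⁻¹ = Y ^ j * (Y * m * Y⁻¹) * (Y ^ j)⁻¹ := by
        rw [pow_succ]
        group
      rw [e]
      exact this
  induction j with
  | zero => simp
  | succ j ih =>
    have e : (m * Y) ^ (j + 1) * (Y ^ (j + 1))⁻¹ =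
        ((m * Y) ^ j * (Y ^ j)⁻¹) * (Y ^ j * m * (Y ^ j)⁻¹) := by
      rw [pow_succ, pow_succ]
      group
    rw [e]
    exact M.mul_mem ih (hYj j m hm)

theorem swap_pow {n : SpecialLinearGroup ι F} {c d : ι → F} {a a' : F}
    (h1 : n.1 *ᵥ c = a • d) (h2 : n.1 *ᵥ d = a' • c) (i : ℕ) :
    (n ^ (2 * i + 1)).1 *ᵥ c = ((a * a') ^ i * a) • d := by
  induction i with
  | zero => simpa using h1
  | succ i ih =>
    have e : n ^ (2 * (i + 1) + 1) = n ^ (2 * i + 1) * (n * n) := by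
      rw [← pow_two, ← pow_add]
      congr 1
    rw [e, act_mul, act_mul, h1, Matrix.mulVec_smul, h2, smul_smul, Matrix.mulVec_smul, ih,
      smul_smul]
    congr 1
    ring

theorem pm_pow (x : SpecialLinearGroup ι F) (j : ℕ) : pm (x ^ j) = pm x ^ j := rfl

theorem three_le_char (r : ℕ) [Fact r.Prime] [CharP F r] (h2 : (2 : F) ≠ 0) : 3 ≤ r := by
  have hr : r.Prime := Fact.out
  have : r ≠ 2 := by
    rintro rfl
    apply h2
    exact_mod_cast CharP.cast_eq_zero F 2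
  have := hr.two_le
  omega

theorem step1 (D : Dat β τ ε N) {M : Subgroup (ProjectiveSpecialLinearGroup ι F)}
    (hM : IsM β M) (r : ℕ) [Fact r.Prime] [CharP F r] (h2 : (2 : F) ≠ 0)
    (h3 : 3 ≤ Fintype.card ι) {x : SpecialLinearGroup ι F} (hx : pm x ∈ M) {c : ι → F}
    (hc : bf τ N c c = 0) : bf τ N c (x.1 *ᵥ c) = 0 := by
  by_contra hb
  have : Nonempty ι := Fintype.card_pos_iff.1 (by omega)
  have hr3 := three_le_char (F := F) r h2
  obtain ⟨ζ, hζ⟩ := D.sim_of_fix (hM.le _ hx)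
  have hc0 : c ≠ 0 := by
    rintro rfl
    exact hb (bf_zero_left _)
  have hζ0 := hζ.ne_zero D.frm hc0
  have hp : HP τ N c ((bf τ N c (x.1 *ᵥ c))⁻¹ • (x.1 *ᵥ c)) := by
    refine ⟨hc, ?_, ?_⟩
    · rw [bf_smul_left, bf_smul_right, hζ c c, hc]
      simp
    · rw [bf_smul_right, inv_mul_cancel₀ hb]
  obtain ⟨w, k, hk, hcw, hdw, hv⟩ := D.frm.exists_wk h2 h3 hp
  obtain ⟨u1, u2, u3, U1, U2, U3, e1, e2⟩ := exists_swap D.frm hp hk hcw hdw hv
  have hxc : x.1 *ᵥ c = bf τ N c (x.1 *ᵥ c) • ((bf τ N c (x.1 *ᵥ c))⁻¹ • (x.1 *ᵥ c)) := by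
    rw [smul_smul, mul_inv_cancel₀ hb, one_smul]
  have A1 := U1.conj hζ hζ0 hb hxc
  have A3 := U3.conj hζ hζ0 hb hxc
  have hY := (A3.mul U2).mul A1
  have hYr := hY.pow_char r hr3
  have f1 := D.fix_of_iso A1.iso
  have f2 := D.fix_of_iso U2.iso
  have f3 := D.fix_of_iso A3.iso
  have f32 := D.fix_of_iso (A3.mul U2).iso
  have fY := D.fix_of_iso hY.iso
  have hxi : (pm x)⁻¹ ∈ M := M.inv_mem hx
  have hm : pm x * (pm (x⁻¹ * u3 * x) * (pm x)⁻¹ * (pm (x⁻¹ * u3 * x))⁻¹) *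
      (pm (x⁻¹ * u3 * x * u2) * pm x * (pm (x⁻¹ * u3 * x * u2))⁻¹) *
      (pm (x⁻¹ * u3 * x * u2 * (x⁻¹ * u1 * x)) * (pm x)⁻¹ *
        (pm (x⁻¹ * u3 * x * u2 * (x⁻¹ * u1 * x)))⁻¹) ∈ M :=
    M.mul_mem (M.mul_mem (M.mul_mem hx (hM.conj f3 hxi)) (hM.conj f32 hx)) (hM.conj fY hxi)
  have hn := pow_mul_inv_mem (fun m hm => hM.conj fY hm) hm r
  have eN : pm x * (pm (x⁻¹ * u3 * x) * (pm x)⁻¹ * (pm (x⁻¹ * u3 * x))⁻¹) *
      (pm (x⁻¹ * u3 * x * u2) * pm x * (pm (x⁻¹ * u3 * x * u2))⁻¹) *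
      (pm (x⁻¹ * u3 * x * u2 * (x⁻¹ * u1 * x)) * (pm x)⁻¹ *
        (pm (x⁻¹ * u3 * x * u2 * (x⁻¹ * u1 * x)))⁻¹) *
      pm (x⁻¹ * u3 * x * u2 * (x⁻¹ * u1 * x)) = pm (u3 * u2 * u1) := by
    simp only [pm_mul, pm_inv]
    group
  rw [eN, ← pm_pow, ← pm_pow, hYr, pm_one, inv_one, mul_one] at hn
  have h5 : (pm ((u3 * u2 * u1) ^ r)) ^ (Nat.card M) = 1 := by
    have := pow_card_eq_one' (G := M) (x := ⟨_, hn⟩)
    exact congrArg Subtype.val this
  have hodd : Odd (r * Nat.card M) :=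
    ((Fact.out : r.Prime).odd_of_ne_two (by omega)).mul hM.odd
  obtain ⟨i, hi⟩ := hodd
  rw [← pm_pow, ← pow_mul, hi] at h5
  obtain ⟨e, he⟩ := exists_eps_of_pm_eq (x := 1) (y := (u3 * u2 * u1) ^ (2 * i + 1)) h5.symm
  have h6 := swap_pow e1 e2 i
  rw [he, Matrix.smul_mulVec, act_one] at h6
  have h7 := congrArg (bf τ N c) h6
  rw [bf_smul_right, bf_smul_right, hc, hp.cd, mul_zero, mul_one] at h7
  have ht : τ k ≠ 0 := by simpa using hk
  exact mul_ne_zero (pow_ne_zero _ (mul_ne_zero (mul_ne_zero D.frm.eps_ne hk) (inv_ne_zero ht)))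
    (mul_ne_zero D.frm.eps_ne hk) h7.symm

theorem gl_of_iso (h : Frm τ ε N) (R : Matrix ι ι F)
    (hR : ∀ u v, bf τ N (R *ᵥ u) (R *ᵥ v) = bf τ N u v) : ∃ ρ : GL ι F, ρ.1 = R := by
  have inj : Function.Injective R.mulVec := by
    intro u u' e
    have : u - u' = 0 := by
      apply h.nondeg
      intro v
      rw [← hR, Matrix.mulVec_sub]
      have e' : R *ᵥ u = R *ᵥ u' := e
      rw [e', sub_self, bf_zero_left]
    exact sub_eq_zero.1 this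
  obtain ⟨ρ, hρ⟩ := Matrix.mulVec_injective_iff_isUnit.1 inj
  exact ⟨ρ, hρ⟩

/-- the isometry `c ↦ d ↦ ε c`, trivial on `⟨c, d⟩^⊥` -/
theorem exists_swap_gl (h : Frm τ ε N) {c d : ι → F} (hp : HP τ N c d) :
    ∃ ρ : GL ι F, (∀ u v, bf τ N (ρ.1 *ᵥ u) (ρ.1 *ᵥ v) = bf τ N u v) ∧ ρ.1 *ᵥ c = d ∧
      ∀ v, bf τ N c v = 0 → bf τ N d v = 0 → ρ.1 *ᵥ v = v := by
  have hdc := h.dc hp
  have he := h.eps_sq
  have hact : ∀ v, (1 + vecMulVec (d - c) (ε • rv τ N d) + vecMulVec (ε • c - d) (rv τ N c)) *ᵥ v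
      = v + (ε * bf τ N d v) • (d - c) + bf τ N c v • (ε • c - d) := by
    intro v
    rw [Matrix.add_mulVec, Matrix.add_mulVec, Matrix.one_mulVec, vecMulVec_mulVec',
      vecMulVec_mulVec', smul_dotProduct, rv_dot, rv_dot, smul_eq_mul]
  obtain ⟨ρ, hρ⟩ := gl_of_iso h
    (1 + vecMulVec (d - c) (ε • rv τ N d) + vecMulVec (ε • c - d) (rv τ N c)) (by
      intro u v
      simp only [hact, bf_add_left, bf_add_right, bf_sub_left, bf_sub_right, bf_smul_left,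
        bf_smul_right, hp.cc, hp.dd, hp.cd, hdc, map_mul, h.tau_eps, h.tau_bf]
      linear_combination (-(ε + ε ^ 2) * (bf τ N u d * bf τ N d v) +
        2 * ε * (bf τ N d v * bf τ N u c) - ε * (bf τ N c v * bf τ N u c) +
        (ε ^ 2 + 1) * (bf τ N u d * bf τ N c v)) * he)
  have hiso : ∀ u v, bf τ N (ρ.1 *ᵥ u) (ρ.1 *ᵥ v) = bf τ N u v := by
    intro u v
    simp only [hρ, hact, bf_add_left, bf_add_right, bf_sub_left, bf_sub_right, bf_smul_left,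
      bf_smul_right, hp.cc, hp.dd, hp.cd, hdc, map_mul, h.tau_eps, h.tau_bf]
    linear_combination (-(ε + ε ^ 2) * (bf τ N u d * bf τ N d v) +
      2 * ε * (bf τ N d v * bf τ N u c) - ε * (bf τ N c v * bf τ N u c) +
      (ε ^ 2 + 1) * (bf τ N u d * bf τ N c v)) * he
  refine ⟨ρ, hiso, ?_, ?_⟩
  · rw [hρ, hact, hp.cc, hdc, he]
    module
  · intro v h1 h2
    rw [hρ, hact, h1, h2]
    simp

theorem step2 (D : Dat β τ ε N) {M : Subgroup (ProjectiveSpecialLinearGroup ι F)}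
    (hM : IsM β M) (r : ℕ) [Fact r.Prime] [CharP F r] (h2 : (2 : F) ≠ 0)
    (h3 : 3 ≤ Fintype.card ι) {x : SpecialLinearGroup ι F} (hx : pm x ∈ M) {c : ι → F}
    (hc : bf τ N c c = 0) : ∃ t : F, x.1 *ᵥ c = t • c := by
  by_contra hne
  push Not at hne
  obtain ⟨ζ, hζ⟩ := D.sim_of_fix (hM.le _ hx)
  have hc' : bf τ N (x.1 *ᵥ c) (x.1 *ᵥ c) = 0 := by rw [hζ, hc, mul_zero]
  have hcc' := step1 D hM r h2 h3 hx hc
  obtain ⟨d', hp', hcd'⟩ := D.frm.exists_HP_perp h2 hc' hcc' hne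
  obtain ⟨ρ, hρ, hρc, hρf⟩ := exists_swap_gl D.frm hp'
  have hρ1 : ρ.1 *ᵥ c = c := hρf c (D.frm.zero_symm hcc') (D.frm.zero_symm hcd')
  have hρ2 : ρ⁻¹.1 *ᵥ c = c := by
    conv_lhs => rw [← hρ1, gl_inv_act]
  have hy : pm (conjS ρ x * x⁻¹) ∈ M := by
    rw [pm_mul, pm_inv, ← cG_pm]
    exact M.mul_mem (hM.inv _ (D.comm_cG ρ hρ) _ hx) (M.inv_mem hx)
  have := step1 D hM r h2 h3 hy hc'
  rw [act_mul, act_inv_act, conjS_act, hρ2, hρc, hp'.cd] at this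
  exact one_ne_zero this

theorem act_ne_zero (x : SpecialLinearGroup ι F) {v : ι → F} (hv : v ≠ 0) : x.1 *ᵥ v ≠ 0 := by
  intro h0
  apply hv
  have := act_inv_act x v
  rw [h0, Matrix.mulVec_zero] at this
  exact this.symm

theorem step3 [Fintype F] (h : Frm τ ε N) (h2 : (2 : F) ≠ 0) (h3 : 3 ≤ Fintype.card ι)
    {x : SpecialLinearGroup ι F} {ζ : F} (hx : Sim τ N ζ x)
    (hfix : ∀ c, bf τ N c c = 0 → ∃ t : F, x.1 *ᵥ c = t • c) :
    ∃ μ : F, ∀ v, x.1 *ᵥ v = μ • v := by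
  obtain ⟨c, hc0, hc⟩ := h.exists_iso h2 h3
  obtain ⟨d, hp⟩ := h.exists_HP h2 hc hc0
  obtain ⟨w0, k0, hk0, hcw0, hdw0, hv0⟩ := h.exists_wk h2 h3 hp
  have hdc := h.dc hp
  have hd0 : d ≠ 0 := by
    rintro rfl
    have := hp.cd
    rw [bf_zero_right] at this
    exact zero_ne_one this
  obtain ⟨μc, hμc⟩ := hfix c hc
  obtain ⟨μd, hμd⟩ := hfix d hp.dd
  have hμc0 : μc ≠ 0 := by
    rintro rfl
    exact act_ne_zero x hc0 (by rw [hμc, zero_smul])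
  have hμd0 : μd ≠ 0 := by
    rintro rfl
    exact act_ne_zero x hd0 (by rw [hμd, zero_smul])
  have key : ∀ (w : ι → F) (k : F), bf τ N c w = 0 → bf τ N d w = 0 →
      τ k + ε * k + bf τ N w w = 0 → x.1 *ᵥ w = μd • w ∧ k * (μd - μc) = 0 := by
    intro w k hcw hdw hv
    have hwc := h.zero_symm hcw
    have hwd := h.zero_symm hdw
    have h1 : bf τ N c (x.1 *ᵥ w) = 0 := by
      have := hx c w
      rw [hμc, bf_smul_left, hcw, mul_zero] at this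
      exact (mul_eq_zero.1 this).resolve_left (by simpa using hμc0)
    have h1' : bf τ N d (x.1 *ᵥ w) = 0 := by
      have := hx d w
      rw [hμd, bf_smul_left, hdw, mul_zero] at this
      exact (mul_eq_zero.1 this).resolve_left (by simpa using hμd0)
    obtain ⟨l, hl⟩ := hfix (d + w + k • c) (by
      simp only [bf_add_left, bf_add_right, bf_smul_left, bf_smul_right, hp.cc, hp.dd, hp.cd, hdc,
        hcw, hdw, hwc, hwd]
      linear_combination hv)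
    rw [Matrix.mulVec_add, Matrix.mulVec_add, Matrix.mulVec_smul, hμc, hμd] at hl
    have e1 := congrArg (bf τ N c) hl
    simp only [bf_add_right, bf_smul_right, hp.cc, hp.cd, hcw, h1] at e1
    have e2 := congrArg (bf τ N d) hl
    simp only [bf_add_right, bf_smul_right, hp.dd, hdc, hdw, h1'] at e2
    have e3 : l = μd := by linear_combination -e1
    subst e3
    have e4 : k * (l - μc) = 0 := by
      have : ε * (k * (l - μc)) = 0 := by linear_combination -e2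
      exact (mul_eq_zero.1 this).resolve_left h.eps_ne
    refine ⟨?_, e4⟩
    have e5 : k * μc = l * k := by linear_combination -e4
    have e6 : x.1 *ᵥ w = l • (d + w + k • c) - l • d - k • μc • c := by
      rw [← hl]
      abel
    rw [e6, smul_smul, e5]
    module
  have hμ : μd = μc := by
    have := (key w0 k0 hcw0 hdw0 hv0).2
    exact sub_eq_zero.1 ((mul_eq_zero.1 this).resolve_left hk0)
  refine ⟨μd, fun v => ?_⟩
  have e := (key _ _ (h.c_pj hp v) (h.d_pj hp v) (h.valid_half h2 _)).1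
  conv_lhs => rw [Frm.eq_pj (τ := τ) (ε := ε) (N := N) c d v]
  rw [Matrix.mulVec_add, Matrix.mulVec_add, Matrix.mulVec_smul, Matrix.mulVec_smul, e, hμc, hμd,
    ← hμ]
  conv_rhs => rw [Frm.eq_pj (τ := τ) (ε := ε) (N := N) c d v]
  module

theorem pm_eq_one_of_scalar {x : SpecialLinearGroup ι F} {μ : F} (h : ∀ v, x.1 *ᵥ v = μ • v) :
    pm x = 1 := by
  symm
  apply pm_eq_of_smul (x := 1) (y := x) (ε := μ)
  apply mat_ext
  intro v
  rw [h, Matrix.smul_mulVec, act_one]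

theorem eq_bot_of_isM [Fintype F] (D : Dat β τ ε N)
    {M : Subgroup (ProjectiveSpecialLinearGroup ι F)}
    (hM : IsM β M) (r : ℕ) [Fact r.Prime] [CharP F r] (h2 : (2 : F) ≠ 0)
    (h3 : 3 ≤ Fintype.card ι) : M = ⊥ := by
  rw [Subgroup.eq_bot_iff_forall]
  intro X hX
  obtain ⟨x, rfl⟩ := pm_surjective X
  obtain ⟨ζ, hζ⟩ := D.sim_of_fix (hM.le _ hX)
  obtain ⟨μ, hμ⟩ := step3 D.frm h2 h3 hζ (fun c hc => step2 D hM r h2 h3 hX hc)
  exact pm_eq_one_of_scalar hμ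

end Cfsg.Agent.Lib.Helper18.BalPSL
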