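import Mathlib
import Cfsg.Agent.Lib.Helper18.BalPSL.HI

set_option autoImplicit false
set_option linter.unusedSectionVars false

/-!
Graph and graph-field involutions of `PSL_n(F)`: an automorphism of odd order centralising the
fixed points is trivial.
-/

namespace Cfsg.Agent.Lib.Helper18.BalPSL

open Matrix MatrixGroups Cfsg.Agent.Lib.Helper18.AutPSL

variable {ι : Type*} [Fintype ι] [DecidableEq ι] {F : Type*} [Field F]
variable {τ : F ≃+* F} {N : Matrix ι ι F} {ε : F}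
variable {β : MulAut (ProjectiveSpecialLinearGroup ι F)}

/-- the semilinear map `v ↦ h ρ(v)` -/
def Ps (h : GL ι F) (ρ : F ≃+* F) (v : ι → F) : ι → F := h.1 *ᵥ (fun i => ρ (v i))

theorem Ps_add (h : GL ι F) (ρ : F ≃+* F) (u v : ι → F) :
    Ps h ρ (u + v) = Ps h ρ u + Ps h ρ v := by
  rw [Ps, Ps, Ps, ← mulVec_add]
  congr 1
  ext i
  simp

theorem Ps_smul (h : GL ι F) (ρ : F ≃+* F) (c : F) (v : ι → F) :
    Ps h ρ (c • v) = ρ c • Ps h ρ v := by
  rw [Ps, Ps, ← mulVec_smul]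
  congr 1
  ext i
  simp

theorem Ps_neg (h : GL ι F) (ρ : F ≃+* F) (v : ι → F) : Ps h ρ (-v) = - Ps h ρ v := by
  have := Ps_smul h ρ (-1) v
  simpa using this

theorem Ps_ne_zero (h : GL ι F) (ρ : F ≃+* F) {v : ι → F} (hv : v ≠ 0) : Ps h ρ v ≠ 0 := by
  intro h0
  apply hv
  have h1 := gl_inv_act h (fun i => ρ (v i))
  rw [show h.1 *ᵥ (fun i => ρ (v i)) = 0 from h0, mulVec_zero] at h1
  ext i
  have := congrFun h1 i
  simpa using this.symm

theorem Ps_conj (h : GL ι F) (ρ : F ≃+* F) (x : SpecialLinearGroup ι F) (v : ι → F) :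
    (conjS h (fldS ρ x)).1 *ᵥ Ps h ρ v = Ps h ρ (x.1 *ᵥ v) := by
  rw [conjS_act, Ps, Ps, gl_inv_act, fldS_val]
  congr 1
  ext i
  simp [Matrix.mulVec, dotProduct, map_sum, map_mul]

/-- `Ψ` commutes with the unipotent isometries fixed by `α` -/
theorem Ps_comm (h : GL ι F) (ρ : F ≃+* F) {c : ι → F} (hc0 : c ≠ 0)
    {u : SpecialLinearGroup ι F}
    (hu : IsU τ N c u) (hα : (cG h * fl ρ : MulAut (ProjectiveSpecialLinearGroup ι F)) (pm u) = pm u) (v : ι → F) :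
    Ps h ρ (u.1 *ᵥ v) = u.1 *ᵥ Ps h ρ v := by
  have h1 : pm u = pm (conjS h (fldS ρ u)) := hα.symm
  obtain ⟨e, he⟩ := exists_eps_of_pm_eq h1
  have h2 : ∀ v, Ps h ρ (u.1 *ᵥ v) = e • (u.1 *ᵥ Ps h ρ v) := by
    intro v
    rw [← Ps_conj, he, Matrix.smul_mulVec]
  have hz0 := Ps_ne_zero h ρ hc0
  have hz := h2 c
  rw [hu.fix] at hz
  have he1 : e = 1 := by
    by_cases hcz : bf τ N c (Ps h ρ c) = 0
    · obtain ⟨t, ht⟩ := hu.perp _ hcz
      by_contra hne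
      have h3 : (1 - e) • Ps h ρ c = (e * t) • c := by
        rw [sub_smul, one_smul]
        nth_rewrite 1 [hz]
        rw [ht]
        module
      have h4 : Ps h ρ c = ((1 - e)⁻¹ * (e * t)) • c := by
        rw [← smul_smul, ← h3, smul_smul, inv_mul_cancel₀ (sub_ne_zero.2 (Ne.symm hne)), one_smul]
      have h5 : u.1 *ᵥ Ps h ρ c = Ps h ρ c := by
        rw [h4, Matrix.mulVec_smul, hu.fix]
      rw [h5] at hz
      have h6 : (1 - e) • Ps h ρ c = 0 := by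
        rw [sub_smul, one_smul, ← hz, sub_self]
      rcases smul_eq_zero.1 h6 with h7 | h7
      · exact hne (sub_eq_zero.1 h7).symm
      · exact hz0 h7
    · have h3 := congrArg (bf τ N c) hz
      rw [bf_smul_right] at h3
      have h4 : bf τ N c (u.1 *ᵥ Ps h ρ c) = bf τ N c (Ps h ρ c) := by
        conv_lhs => rw [← hu.fix, hu.iso, hu.fix]
      rw [h4] at h3
      have h5 : (1 - e) * bf τ N c (Ps h ρ c) = 0 := by linear_combination h3
      exact (sub_eq_zero.1 ((mul_eq_zero.1 h5).resolve_right hcz)).symm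
  rw [h2, he1, one_smul]

/-- the hypotheses on `Ψ` with respect to the point `⟨c⟩` -/
def Cm (τ : F ≃+* F) (N : Matrix ι ι F) (Ψ : (ι → F) → (ι → F)) (c : ι → F) : Prop :=
  ∀ u : SpecialLinearGroup ι F, IsU τ N c u → ∀ v, Ψ (u.1 *ᵥ v) = u.1 *ᵥ Ψ v

theorem Ps_center (hf : Frm τ ε N) (h2 : (2 : F) ≠ 0) (h : GL ι F) (ρ : F ≃+* F) {c d w : ι → F}
    {k : F} (hp : HP τ N c d) (hk : k ≠ 0) (hcw : bf τ N c w = 0) (hdw : bf τ N d w = 0)
    (hv : τ k + ε * k + bf τ N w w = 0) (hC : Cm τ N (Ps h ρ) c) :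
    ∃ μ : F, Ps h ρ c = μ • c := by
  have v1 : Val τ ε N c w k := ⟨hp.cc, hcw, hv⟩
  have v2 : Val τ ε N c (-w) k := ⟨hp.cc, by rw [bf_neg_right, hcw, neg_zero], by
    rw [bf_neg_left, bf_neg_right, neg_neg]; exact hv⟩
  have e1 := hC _ (isU_Ei hf v1) d
  have e2 := hC _ (isU_Ei hf v2) d
  have hwd := hf.zero_symm hdw
  simp only [Ei_act, hp.cd, hwd, bf_neg_left, Ps_add, Ps_smul, Ps_neg, sub_eq_add_neg, neg_zero,
    mul_zero, zero_smul, one_smul, mul_one, add_zero] at e1 e2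
  have hρ : ρ (2 * k) ≠ 0 := by simpa using ⟨h2, hk⟩
  refine ⟨(ρ (2 * k))⁻¹ * (2 * k * bf τ N c (Ps h ρ d)), ?_⟩
  have e3 : ρ (2 * k) • Ps h ρ c = (2 * k * bf τ N c (Ps h ρ d)) • c := by
    rw [map_mul, map_ofNat]
    linear_combination (norm := module) e1 + e2
  rw [← smul_smul, ← e3, smul_smul, inv_mul_cancel₀ hρ, one_smul]

theorem Ps_W (hf : Frm τ ε N) (h2 : (2 : F) ≠ 0) (h : GL ι F) (ρ : F ≃+* F) {c d w : ι → F}
    (hp : HP τ N c d) (hcw : bf τ N c w = 0) (hdw : bf τ N d w = 0)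
    (hC : Cm τ N (Ps h ρ) c) {μ : F} (hd : Ps h ρ d = μ • d) : Ps h ρ w = μ • w := by
  have hv := hf.valid_half h2 w
  have v1 : Val τ ε N c w (-(ε * bf τ N w w) / 2) := ⟨hp.cc, hcw, hv⟩
  have v2 : Val τ ε N c (-w) (-(ε * bf τ N w w) / 2) :=
    ⟨hp.cc, by rw [bf_neg_right, hcw, neg_zero], by
      rw [bf_neg_left, bf_neg_right, neg_neg]; exact hv⟩
  have e1 := hC _ (isU_Ei hf v1) d
  have e2 := hC _ (isU_Ei hf v2) d
  have hwd := hf.zero_symm hdw
  rw [hd, Matrix.mulVec_smul] at e1 e2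
  simp only [Ei_act, hp.cd, hwd, bf_neg_left, Ps_add, Ps_smul, Ps_neg, sub_eq_add_neg, neg_zero,
    mul_zero, zero_smul, one_smul, mul_one, add_zero] at e1 e2
  have e3 : (2 : F) • Ps h ρ w = (2 : F) • (μ • w) := by
    linear_combination (norm := module) e1 - e2
  have := congrArg (fun z => (2 : F)⁻¹ • z) e3
  simpa only [smul_smul, inv_mul_cancel_left₀ h2, inv_mul_cancel₀ h2, one_smul] using this

theorem Ps_rigid (hf : Frm τ ε N) (h2 : (2 : F) ≠ 0) (h3 : 3 ≤ Fintype.card ι) (h : GL ι F)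
    (ρ : F ≃+* F) {c d : ι → F} (hp : HP τ N c d) (hCc : Cm τ N (Ps h ρ) c)
    (hCd : Cm τ N (Ps h ρ) d) : ρ = 1 ∧ ∃ μ : F, μ ≠ 0 ∧ ∀ v, h.1 *ᵥ v = μ • v := by
  have hdc := hf.dc hp
  have hρε : ρ ε = ε := by
    rcases hf.eps with e | ⟨e, -⟩ <;> rw [e] <;> simp
  have hp' : HP τ N d (ε • c) := by
    refine ⟨hp.dd, ?_, ?_⟩
    · rw [bf_smul_left, bf_smul_right, hp.cc, mul_zero, mul_zero]
    · rw [bf_smul_right, hdc, hf.eps_sq]
  obtain ⟨w0, k0, hk0, hcw0, hdw0, hv0⟩ := hf.exists_wk h2 h3 hp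
  obtain ⟨μc, hμc⟩ := Ps_center hf h2 h ρ hp hk0 hcw0 hdw0 hv0 hCc
  obtain ⟨μd, hμd⟩ := Ps_center hf h2 h ρ hp' hk0 hdw0
    (by rw [bf_smul_left, hcw0, mul_zero]) hv0 hCd
  have hμc' : Ps h ρ (ε • c) = μc • (ε • c) := by
    rw [Ps_smul, hρε, hμc, smul_comm]
  have W1 : ∀ w, bf τ N c w = 0 → bf τ N d w = 0 → Ps h ρ w = μd • w :=
    fun w hcw hdw => Ps_W hf h2 h ρ hp hcw hdw hCc hμd
  have W2 : ∀ w, bf τ N c w = 0 → bf τ N d w = 0 → Ps h ρ w = μc • w :=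
    fun w hcw hdw => Ps_W hf h2 h ρ hp' hdw (by rw [bf_smul_left, hcw, mul_zero]) hCd hμc'
  obtain ⟨w1, h10, hc1, hd1⟩ := exists_common_zero h3 (rv τ N c) (rv τ N d)
  rw [rv_dot] at hc1 hd1
  have hμ : μd = μc := by
    have e := (W1 w1 hc1 hd1).symm.trans (W2 w1 hc1 hd1)
    have e' : (μd - μc) • w1 = 0 := by rw [sub_smul, e, sub_self]
    exact sub_eq_zero.1 ((smul_eq_zero.1 e').resolve_right h10)
  have hμ0 : μd ≠ 0 := by
    rintro rfl
    exact Ps_ne_zero h ρ h10 (by rw [W1 w1 hc1 hd1, zero_smul])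
  have hρ : ρ = 1 := by
    ext a
    have e := W1 (a • w1) (by rw [bf_smul_right, hc1, mul_zero])
      (by rw [bf_smul_right, hd1, mul_zero])
    rw [Ps_smul, W1 w1 hc1 hd1, smul_smul, smul_smul] at e
    have e' : (ρ a * μd - μd * a) • w1 = 0 := by rw [sub_smul, e, sub_self]
    have e2 := (smul_eq_zero.1 e').resolve_right h10
    apply mul_right_cancel₀ hμ0
    show ρ a * μd = a * μd
    linear_combination e2
  subst hρ
  refine ⟨rfl, μd, hμ0, fun v => ?_⟩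
  have e0 : ∀ v, h.1 *ᵥ v = Ps h 1 v := fun v => rfl
  have e := W1 _ (hf.c_pj hp v) (hf.d_pj hp v)
  conv_lhs => rw [Frm.eq_pj (τ := τ) (ε := ε) (N := N) c d v]
  rw [e0, Ps_add, Ps_add, Ps_smul, Ps_smul, e, hμc, hμd, ← hμ]
  conv_rhs => rw [Frm.eq_pj (τ := τ) (ε := ε) (N := N) c d v]
  have e9 : ∀ a : F, (1 : F ≃+* F) a = a := fun a => rfl
  simp only [e9]
  module

theorem typeA_sq [Finite F] (h3 : 3 ≤ Fintype.card ι) (hT : TvInv ι F)
    (α : MulAut (ProjectiveSpecialLinearGroup ι F)) : TypeA (α * α) := by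
  rcases typeA_or h3 hT α with hA | hA
  · exact hA.mul hA
  · obtain ⟨g, σ, e⟩ := hA.form h3 hT
    have e1 : α = cG g * fl σ * gr := by
      rw [← fl_apply] at e
      rw [← e, mul_assoc, gr_mul_gr, mul_one]
    have e2 : α * α = (cG g * fl σ) * (cG (gT g) * fl σ) := by
      calc α * α = cG g * fl σ * (gr * cG g) * fl σ * gr := by rw [e1]; group
        _ = cG g * fl σ * (cG (gT g) * gr) * fl σ * gr := by rw [gr_mul_cG]
        _ = cG g * fl σ * cG (gT g) * (gr * fl σ) * gr := by group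
        _ = cG g * fl σ * cG (gT g) * (fl σ * gr) * gr := by rw [gr_mul_fl]
        _ = cG g * fl σ * cG (gT g) * fl σ * (gr * gr) := by group
        _ = _ := by rw [gr_mul_gr]; group
    rw [e2]
    exact ((typeA_cG g).mul (typeA_fld σ)).mul ((typeA_cG _).mul (typeA_fld σ))

theorem typeA_one : TypeA (1 : MulAut (ProjectiveSpecialLinearGroup ι F)) := by
  have := typeA_cG (1 : GL ι F)
  rwa [map_one] at this

theorem typeA_of_odd [Finite F] (h3 : 3 ≤ Fintype.card ι) (hT : TvInv ι F)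
    (α : MulAut (ProjectiveSpecialLinearGroup ι F)) (hodd : Odd (orderOf α)) : TypeA α := by
  obtain ⟨j, hj⟩ := hodd
  have h1 : ∀ i : ℕ, TypeA ((α * α) ^ i) := by
    intro i
    induction i with
    | zero => rw [pow_zero]; exact typeA_one
    | succ i ih => rw [pow_succ]; exact ih.mul (typeA_sq h3 hT α)
  have h2 : (α * α) ^ j * α = 1 := by
    rw [← pow_two, ← pow_mul, ← pow_succ, ← hj]
    exact pow_orderOf_eq_one α
  have h4 : α = ((α * α) ^ j)⁻¹ := (inv_eq_of_mul_eq_one_right h2).symm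
  rw [h4]
  exact (h1 j).inv h3 hT

theorem eq_one_of_fix [Fintype F] (D : Dat β τ ε N) (r : ℕ) [Fact r.Prime] [CharP F r]
    (h2 : (2 : F) ≠ 0) (h3 : 3 ≤ Fintype.card ι)
    (α : MulAut (ProjectiveSpecialLinearGroup ι F)) (hα : ∀ k, β k = k → α k = k)
    (hodd : Odd (orderOf α)) : α = 1 := by
  have hT := tvInv (ι := ι) (F := F) r h3
  obtain ⟨h, ρ, e⟩ := (typeA_of_odd h3 hT α hodd).form h3 hT
  rw [← fl_apply] at e
  obtain ⟨c, hc0, hc⟩ := D.frm.exists_iso h2 h3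
  obtain ⟨d, hp⟩ := D.frm.exists_HP h2 hc hc0
  have hd0 : d ≠ 0 := by
    rintro rfl
    have := hp.cd
    rw [bf_zero_right] at this
    exact zero_ne_one this
  have hC : ∀ c : ι → F, c ≠ 0 → Cm τ N (Ps h ρ) c := by
    intro c hc0 u hu v
    apply Ps_comm h ρ hc0 hu
    rw [← e]
    exact hα _ (D.fix_of_iso hu.iso)
  obtain ⟨rfl, μ, hμ0, hμ⟩ := Ps_rigid D.frm h2 h3 h ρ hp (hC c hc0) (hC d hd0)
  have e1 : h = sc μ hμ0 := by
    apply Units.ext
    rw [sc_val]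
    apply mat_ext
    intro v
    rw [hμ, Matrix.smul_mulVec, Matrix.one_mulVec]
  rw [e, e1, cG_sc, map_one, one_mul]

end Cfsg.Agent.Lib.Helper18.BalPSL
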