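import Mathlib
import Cfsg.Agent.Lib.Helper18.BalPSL.HII

set_option autoImplicit false
set_option linter.unusedSectionVars false

/-!
Every involution of `Aut(PSL_n(F))` interchanging points and hyperplanes is the polarity
automorphism of a symmetric, alternating or Hermitian form.
-/

namespace Cfsg.Agent.Lib.Helper18.BalPSL

open Matrix MatrixGroups Cfsg.Agent.Lib.Helper18.AutPSL

section Gen

variable {ι : Type*} [Fintype ι] [DecidableEq ι] {F : Type*} [Field F]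

theorem bf_eq (τ : F ≃+* F) (N : Matrix ι ι F) (u v : ι → F) :
    bf τ N u v = (fun i => τ (u i)) ⬝ᵥ (N *ᵥ v) := by
  unfold bf rv
  rw [Matrix.dotProduct_mulVec]

theorem map_act (σ : F ≃+* F) (x : Matrix ι ι F) (u : ι → F) :
    (fun i => σ ((x *ᵥ u) i)) = (x.map σ) *ᵥ (fun i => σ (u i)) := by
  ext i
  simp [Matrix.mulVec, dotProduct, map_sum, map_mul]

theorem bf_polar (σ : F ≃+* F) (g : GL ι F) (x : SpecialLinearGroup ι F) (u v : ι → F) :
    bf σ g⁻¹.1 (x.1 *ᵥ u) ((conjS g (fldS σ (invT x))).1 *ᵥ v) = bf σ g⁻¹.1 u v := by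
  rw [bf_eq, bf_eq, conjS_act, gl_inv_act, map_act, fldS_val, Matrix.dotProduct_mulVec,
    Matrix.vecMul_mulVec]
  have h1 : (x.1.map σ)ᵀ * ((invT x).1.map σ) = 1 := by
    have h2 := congrArg Matrix.transpose (invT_transpose_mul x)
    rw [Matrix.transpose_mul, Matrix.transpose_transpose, Matrix.transpose_one] at h2
    have h3 := congrArg (mp σ) h2
    rw [map_mul, map_one] at h3
    rw [← h3]
    rfl
  rw [h1, Matrix.vecMul_one]

theorem frm_of_herm (σ : F ≃+* F) (hs : ∀ a, σ (σ a) = a) {ε : F}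
    (hε : ε = 1 ∨ (ε = -1 ∧ ∀ a, σ a = a)) (g : GL ι F) (hg : g.1 = ε • st σ g.1) :
    Frm σ ε g⁻¹.1 := by
  have he : ε * ε = 1 := by
    rcases hε with e | ⟨e, -⟩ <;> rw [e] <;> ring
  have hσε : σ ε = ε := by
    rcases hε with e | ⟨e, -⟩ <;> rw [e] <;> simp
  have hN : st σ g⁻¹.1 = ε • g⁻¹.1 := by
    have h5 : st σ g⁻¹.1 * st σ g.1 = 1 := by rw [← st_mul, Units.mul_inv, st_one]
    have h6 : st σ g.1 = ε • g.1 := by
      conv_rhs => rw [hg, smul_smul, he, one_smul]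
    rw [h6, Matrix.mul_smul] at h5
    calc st σ g⁻¹.1 = (st σ g⁻¹.1 * g.1) * g⁻¹.1 := by
          rw [Matrix.mul_assoc, Units.mul_inv, Matrix.mul_one]
      _ = (ε * ε) • ((st σ g⁻¹.1 * g.1) * g⁻¹.1) := by rw [he, one_smul]
      _ = ε • ((ε • (st σ g⁻¹.1 * g.1)) * g⁻¹.1) := by rw [Matrix.smul_mul, smul_smul]
      _ = _ := by rw [h5, Matrix.one_mul]
  refine ⟨hs, hε, ?_, ?_⟩
  · intro u v
    have h1 : σ (bf σ g⁻¹.1 u v) = bf σ (st σ g⁻¹.1) v u := by
      rw [bf_eq, bf_eq]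
      simp only [dotProduct, Matrix.mulVec, map_sum, map_mul, hs, st_apply, Finset.mul_sum]
      rw [Finset.sum_comm]
      apply Finset.sum_congr rfl
      intro i _
      apply Finset.sum_congr rfl
      intro j _
      ring
    rw [h1, hN, bf_eq, bf_eq, Matrix.smul_mulVec, dotProduct_smul, smul_eq_mul, ← mul_assoc, he,
      one_mul]
  · intro u hu
    have h1 : rv σ g⁻¹.1 u = 0 := by
      funext i
      have := hu (Pi.single i 1)
      unfold bf at this
      rwa [_root_.dotProduct_single_one] at this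
    have h2 : (fun i => σ (u i)) = 0 := by
      have := congrArg (fun z => z ᵥ* g.1) h1
      simpa [rv, Matrix.vecMul_vecMul] using this
    funext i
    have := congrFun h2 i
    simpa using this

theorem dat_of_herm (σ : F ≃+* F) (hs : ∀ a, σ (σ a) = a) {ε : F}
    (hε : ε = 1 ∨ (ε = -1 ∧ ∀ a, σ a = a)) (g : GL ι F) (hg : g.1 = ε • st σ g.1) :
    Dat (cG g * (fl σ * gr)) σ ε g⁻¹.1 := by
  have hf := frm_of_herm σ hs hε g hg
  refine ⟨hf, fun x y => ?_⟩
  have e0 : (cG g * (fl σ * gr) : MulAut (ProjectiveSpecialLinearGroup ι F)) (pm x) =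
      pm (conjS g (fldS σ (invT x))) := rfl
  rw [e0]
  constructor
  · intro h
    obtain ⟨e, he⟩ := exists_eps_of_pm_eq h
    refine ⟨e, fun u v => ?_⟩
    rw [he, Matrix.smul_mulVec, bf_smul_right, bf_polar]
  · rintro ⟨ζ, hζ⟩
    apply pm_eq_of_smul (ε := ζ)
    apply mat_ext
    intro v
    rw [Matrix.smul_mulVec]
    apply sub_eq_zero.1
    apply hf.nondeg'
    intro a
    have := hζ (x⁻¹.1 *ᵥ a) v
    rw [← bf_polar σ g x (x⁻¹.1 *ᵥ a) v, act_act_inv] at this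
    rw [bf_sub_right, bf_smul_right, this, sub_self]

end Gen

variable {F : Type*} [Field F] {n : ℕ}

theorem exists_normal [Fintype F] (hn : 2 ≤ n) (g : GL (Fin n) F) (σ : F ≃+* F)
    (h : (cG g * (fl σ * gr)) ^ 2 = 1) :
    ∃ (g' : GL (Fin n) F) (ε : F), cG g' = cG g ∧ (∀ a, σ (σ a) = a) ∧
      (ε = 1 ∨ (ε = -1 ∧ ∀ a, σ a = a)) ∧ g'.1 = ε • st σ g'.1 := by
  have h0 : cG (g * gm σ (gT g)) * fl (σ * σ) = 1 := by
    rw [← h, pow_two, map_mul, ← gf_mul_gf]
    calc cG g * cG (gm σ (gT g)) * ((fl σ * gr) * (fl σ * gr))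
        = cG g * (cG (gm σ (gT g)) * (fl σ * gr)) * (fl σ * gr) := by group
      _ = _ := by rw [← gf_mul_cG]; group
  have h0' : cG (g * gm σ (gT g)) = fl (σ * σ)⁻¹ := by
    rw [map_inv]
    exact eq_inv_of_mul_eq_one_left h0
  have hσ2 : σ * σ = 1 := inv_eq_one.1 (rigid_fin hn _ _ h0').1
  have hs : ∀ x, σ (σ x) = x := fun x => congrArg (fun τ : F ≃+* F => τ x) hσ2
  have h1 : cG (g * gm σ (gT g)) = 1 := by rw [h0', hσ2, inv_one, map_one]
  obtain ⟨lam, hl0, hl⟩ := exists_sc_of_cG_eq_one hn h1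
  have h2 : g.1 * st σ g⁻¹.1 = lam • 1 := by
    rw [← sc_val lam hl0, ← hl]
    rfl
  have h3 : g.1 = lam • st σ g.1 := by
    have h5 : st σ g⁻¹.1 * st σ g.1 = 1 := by rw [← st_mul, Units.mul_inv, st_one]
    calc g.1 = g.1 * (st σ g⁻¹.1 * st σ g.1) := by rw [h5, Matrix.mul_one]
      _ = (g.1 * st σ g⁻¹.1) * st σ g.1 := by rw [Matrix.mul_assoc]
      _ = _ := by rw [h2, Matrix.smul_mul, Matrix.one_mul]
  have h4 : lam * σ lam = 1 := by
    have h5 : st σ g.1 = σ lam • g.1 := by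
      conv_lhs => rw [h3, st_smul, st_st σ hs]
    have h6 : (1 : F) • g.1 = (lam * σ lam) • g.1 := by
      rw [one_smul, ← smul_smul, ← h5]
      exact h3
    exact (eq_of_smul_eq_smul_GL hn g h6).symm
  by_cases hσ1 : σ = 1
  · subst hσ1
    have h5 : lam * lam = 1 := h4
    refine ⟨g, lam, rfl, hs, ?_, h3⟩
    rcases mul_self_eq_one_iff.1 h5 with e | e
    · exact Or.inl e
    · exact Or.inr ⟨e, fun a => rfl⟩
  · have hord : orderOf σ = 2 := orderOf_eq_prime (by rw [pow_two]; exact hσ2) hσ1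
    obtain ⟨c, hc0, hc⟩ := hilbert90_one σ lam 2 (by norm_num) hord (by
      simp [nrmS_succ, nrmS_zero, h4])
    have hc1 : σ c ≠ 0 := by simpa using hc0
    have hM : st σ (σ c • g.1) = σ c • g.1 := by
      rw [st_smul, hs]
      conv_rhs => rw [h3, smul_smul, mul_comm, hc]
    have hv : (sc (σ c) hc1 * g).1 = σ c • g.1 := by
      show (sc (σ c) hc1 : GL (Fin n) F).1 * g.1 = _
      rw [sc_val, Matrix.smul_mul, Matrix.one_mul]
    refine ⟨sc (σ c) hc1 * g, 1, by rw [map_mul, cG_sc, one_mul], hs, Or.inl rfl, ?_⟩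
    rw [hv, hM, one_smul]

theorem exists_dat [Fintype F] (r : ℕ) [Fact r.Prime] [CharP F r] (hn : 2 ≤ n)
    (β : MulAut (ProjectiveSpecialLinearGroup (Fin n) F)) (hord : orderOf β = 2)
    (hA : ¬ TypeA β) :
    3 ≤ n ∧ ∃ (τ : F ≃+* F) (ε : F) (N : Matrix (Fin n) (Fin n) F), Dat β τ ε N := by
  have h3 : 3 ≤ n := by
    by_contra hlt
    obtain rfl : n = 2 := by omega
    obtain ⟨g, σ, e⟩ := aut_form2 r β
    apply hA
    rw [e]
    exact (typeA_cG g).mul (typeA_fld σ)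
  refine ⟨h3, ?_⟩
  obtain ⟨g, σ, e | e⟩ := aut_form r (by rw [Fintype.card_fin]; exact h3) β
  · exfalso
    apply hA
    rw [e]
    exact (typeA_cG g).mul (typeA_fld σ)
  · have e' : β = cG g * (fl σ * gr) := by rw [e, mul_assoc]; rfl
    obtain ⟨g', ε, h1, hs, hε, hg⟩ := exists_normal hn g σ (by
      rw [← e', ← hord]
      exact pow_orderOf_eq_one β)
    refine ⟨σ, ε, g'⁻¹.1, ?_⟩
    rw [e', ← h1]
    exact dat_of_herm σ hs hε g' hg

end Cfsg.Agent.Lib.Helper18.BalPSL
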