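import Mathlib
import Cfsg.Agent.Lib.Helper18.BalPSL.Normal
import Cfsg.Agent.Lib.Helper99.BalPSU.Defs
import Cfsg.Prelude.Def_StandardType

set_option autoImplicit false

/-!
Rung of S2686: the involutions of `Aut(PSL_n(F))` of graph and graph-field type.
-/

namespace Cfsg.Agent.Lib.Helper18.BalPSL

open Matrix MatrixGroups Cfsg.Agent.Lib.Helper18.AutPSL Cfsg.Agent.Lib.Helper99.BalPSU

theorem graph_case' {F : Type*} [Field F] [Fintype F] {n : ℕ} (hn : 2 ≤ n)
    (h2 : (2 : F) ≠ 0) (β : MulAut (ProjectiveSpecialLinearGroup (Fin n) F))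
    (hord : orderOf β = 2) (hA : ¬ TypeA β) : HI 2 β ∧ HII 2 β := by
  obtain ⟨r, hr⟩ := CharP.exists F
  have : Fact r.Prime := ⟨CharP.char_is_prime F r⟩
  obtain ⟨h3, τ, ε, N, D⟩ := exists_dat r hn β hord hA
  have h3' : 3 ≤ Fintype.card (Fin n) := by rw [Fintype.card_fin]; exact h3
  constructor
  · intro M hM hcop hinv
    exact eq_bot_of_isM D ⟨fun k hk => hM hk, Nat.coprime_two_right.1 hcop, hinv⟩ r h2 h3'
  · intro α hα hcop
    exact eq_one_of_fix D r h2 h3' α (fun k hk => hα k hk) (Nat.coprime_two_right.1 hcop)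

/-- **graph and graph-field involutions** (the simplicity hypothesis is not used) -/
theorem graph_case {F : Type*} [Field F] [Fintype F] {n : ℕ} (hn : 2 ≤ n)
    (_hK : IsSimpleGroup (ProjectiveSpecialLinearGroup (Fin n) F))
    (h2 : (2 : F) ≠ 0) (β : MulAut (ProjectiveSpecialLinearGroup (Fin n) F))
    (hord : orderOf β = 2) (hA : ¬ TypeA β) : HI 2 β ∧ HII 2 β :=
  graph_case' hn h2 β hord hA

/-- automorphisms of odd order preserve the types -/
theorem typeA_of_odd_fin {F : Type*} [Field F] [Fintype F] {n : ℕ} (hn : 2 ≤ n)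
    (α : MulAut (ProjectiveSpecialLinearGroup (Fin n) F)) (hodd : Odd (orderOf α)) :
    TypeA α := by
  obtain ⟨r, hr⟩ := CharP.exists F
  have : Fact r.Prime := ⟨CharP.char_is_prime F r⟩
  rcases Nat.lt_or_ge 2 n with h3 | h3
  · have h3' : 3 ≤ Fintype.card (Fin n) := by rw [Fintype.card_fin]; exact h3
    exact typeA_of_odd h3' (tvInv r h3') α hodd
  · obtain rfl : n = 2 := by omega
    obtain ⟨g, σ, e⟩ := aut_form2 r α
    rw [e]
    exact (typeA_cG g).mul (typeA_fld σ)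

/-- type preserving automorphisms are the semilinear ones -/
theorem typeA_iff {F : Type*} [Field F] [Fintype F] {n : ℕ} (hn : 2 ≤ n)
    (β : MulAut (ProjectiveSpecialLinearGroup (Fin n) F)) :
    TypeA β ↔ ∃ (g : GL (Fin n) F) (σ : F ≃+* F), β = cG g * fl σ := by
  obtain ⟨r, hr⟩ := CharP.exists F
  have : Fact r.Prime := ⟨CharP.char_is_prime F r⟩
  constructor
  · intro hA
    rcases Nat.lt_or_ge 2 n with h3 | h3
    · have h3' : 3 ≤ Fintype.card (Fin n) := by rw [Fintype.card_fin]; exact h3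
      exact hA.form h3' (tvInv r h3')
    · obtain rfl : n = 2 := by omega
      exact aut_form2 r β
  · rintro ⟨g, σ, rfl⟩
    exact (typeA_cG g).mul (typeA_fld σ)

/-- the field type of the statement S2686 is type preserving -/
theorem typeA_iff_fieldType {F : Type*} [Field F] [Fintype F] {n : ℕ} (hn : 2 ≤ n)
    (β : MulAut (ProjectiveSpecialLinearGroup (Fin n) F)) :
    TypeA β ↔ ∃ γ φ : MulAut (ProjectiveSpecialLinearGroup (Fin n) F),
      Cfsg.IsInnerDiagonalAutPSL γ ∧ Cfsg.IsFieldAutPSL φ ∧ β = φ.trans γ := by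
  rw [typeA_iff hn]
  constructor
  · rintro ⟨g, σ, rfl⟩
    exact ⟨cG g, fl σ, isInnerDiagonal_cG g, ⟨σ, isStdField_fld σ⟩, rfl⟩
  · rintro ⟨γ, φ, hγ, ⟨σ, hσ⟩, rfl⟩
    obtain ⟨g, rfl⟩ := eq_cG_of_isInnerDiagonal hγ
    have e : φ = fl σ := eq_fld_of_isStdField hσ
    exact ⟨g, σ, by rw [e]; rfl⟩

end Cfsg.Agent.Lib.Helper18.BalPSL
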